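import Cfsg.Agent.H74.MCDefs

set_option autoImplicit false
set_option linter.style.haveILetI false
set_option linter.unusedVariables false
set_option linter.unusedSectionVars false

/-!
# helper66: S4756-CAB for helper74
-/

namespace Cfsg.Agent.H66.MC

open Cfsg

universe u

/-- S4756-CAB. -/
theorem cAb : Cfsg.Agent.H74.MC.StCAb.{u} := by
  intro G _ _ p _ P A hS hA
  have hp : p.Prime := Fact.out
  -- a nonidentity element of `A`
  obtain ⟨a, haA, ha1⟩ : ∃ a ∈ A, a ≠ 1 := by
    by_contra hcon
    push Not at hcon
    exact hA ((Subgroup.eq_bot_iff_forall A).mpr hcon)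
  have haP : a ∉ P := by
    intro h
    have : a ∈ A ⊓ P := ⟨haA, h⟩
    rw [hS.inf, Subgroup.mem_bot] at this
    exact ha1 this
  have hGpos : 0 < Nat.card ↥(commutator G) := Nat.card_pos
  have hcomm : ∀ c c' : G, c ∈ P ⊓ Subgroup.centralizer (A : Set G) →
      c' ∈ P ⊓ Subgroup.centralizer (A : Set G) → c * c' = c' * c := by
    intro c c' hc hc'
    have hcP : c ∈ P := hc.1
    have hca : a * c = c * a := (Subgroup.mem_centralizer_iff.mp hc.2) a haA
    have hc'a : a * c' = c' * a := (Subgroup.mem_centralizer_iff.mp hc'.2) a haA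
    have hgP : c * a ∉ P := by
      intro h
      apply haP
      have : c⁻¹ * (c * a) ∈ P := P.mul_mem (P.inv_mem hcP) h
      simpa using this
    obtain ⟨k, hk⟩ := hS.pgroup ⟨c, hcP⟩
    have hck : c ^ (p ^ k) = 1 := by
      have := congrArg Subtype.val hk
      simpa using this
    have hord : orderOf a ∣ Nat.card ↥A := by
      have := orderOf_dvd_natCard (⟨a, haA⟩ : ↥A)
      rwa [Subgroup.orderOf_mk] at this
    have hcop : Nat.Coprime (p ^ k) (orderOf a) := by
      apply Nat.Coprime.pow_left
      exact (Nat.Coprime.coprime_dvd_left hord hS.coprime).symm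
    obtain ⟨j, hj⟩ := exists_pow_eq_self_of_coprime hcop
    have hcm : Commute c a := hca.symm
    have hpow : (c * a) ^ (p ^ k * j) = a := by
      rw [pow_mul, hcm.mul_pow, hck, one_mul, hj]
    -- C(c a) ≤ C(a)
    have hle : Subgroup.centralizer ({c * a} : Set G) ≤ Subgroup.centralizer ({a} : Set G) := by
      intro x hx
      rw [Subgroup.mem_centralizer_iff] at hx ⊢
      intro h hh
      rw [Set.mem_singleton_iff] at hh
      rw [hh]
      have h1 : (c * a) * x = x * (c * a) := hx (c * a) (Set.mem_singleton _)
      have h2 : Commute (c * a) x := h1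
      have h3 : Commute ((c * a) ^ (p ^ k * j)) x := h2.pow_left _
      rw [hpow] at h3
      exact h3
    have hcard : Nat.card ↥(Subgroup.centralizer ({a} : Set G)) ≤
        Nat.card ↥(Subgroup.centralizer ({c * a} : Set G)) := by
      have h1 := hS.cent (c * a) hgP
      have h2 := hS.cent a haP
      have h3 : Nat.card ↥(Subgroup.centralizer ({a} : Set G)) * Nat.card ↥(commutator G) =
          Nat.card ↥(Subgroup.centralizer ({c * a} : Set G)) * Nat.card ↥(commutator G) := by
        rw [h1, h2]
      exact (Nat.eq_of_mul_eq_mul_right hGpos h3).le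
    have heq : Subgroup.centralizer ({c * a} : Set G) = Subgroup.centralizer ({a} : Set G) :=
      Subgroup.eq_of_le_of_card_ge hle hcard
    have hc'mem : c' ∈ Subgroup.centralizer ({c * a} : Set G) := by
      rw [heq, Subgroup.mem_centralizer_iff]
      intro h hh
      rw [Set.mem_singleton_iff] at hh
      rw [hh]
      exact hc'a
    have h4 : (c * a) * c' = c' * (c * a) :=
      (Subgroup.mem_centralizer_iff.mp hc'mem) (c * a) (Set.mem_singleton _)
    -- c a c' = c' c a and a c' = c' a ⟹ c c' a = c' c a
    have h5 : c * c' * a = c' * c * a := by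
      calc c * c' * a = c * (c' * a) := by rw [mul_assoc]
        _ = c * (a * c') := by rw [hc'a]
        _ = (c * a) * c' := by rw [mul_assoc]
        _ = c' * (c * a) := h4
        _ = c' * c * a := by rw [mul_assoc]
    exact mul_right_cancel h5
  exact isMulCommutative_iff.mpr (fun x y => Subtype.ext (hcomm x y x.2 y.2))

example : Cfsg.Agent.H74.MC.StCAb.{u} := cAb


end Cfsg.Agent.H66.MC
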