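import Cfsg.Agent.H74.MCDefs

set_option autoImplicit false
set_option linter.style.haveILetI false
set_option linter.unusedVariables false
set_option linter.unusedSectionVars false

/-!
# helper66: S4756-CYC1 for helper74
-/

namespace Cfsg.Agent.H66.MC

open Cfsg

universe u

section RingPart

variable {R : Type*} [Ring R]

/-- the orbit sum `∑_{i<r} c^i`. -/
noncomputable def orbSum (r : ℕ) (c : R) : R := ∑ i ∈ Finset.range r, c ^ i

theorem mul_orbSum (r : ℕ) (c : R) (hc : c ^ r = 1) : c * orbSum r c = orbSum r c := by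
  unfold orbSum
  rw [Finset.mul_sum]
  have h1 : ∑ i ∈ Finset.range r, c * c ^ i = ∑ i ∈ Finset.range r, c ^ (i + 1) := by
    apply Finset.sum_congr rfl
    intro i _
    rw [pow_succ']
  rw [h1]
  have h2 := Finset.sum_range_succ (fun i => c ^ i) r
  have h3 := Finset.sum_range_succ' (fun i => c ^ i) r
  simp only [pow_zero] at h3
  rw [h3, hc] at h2
  exact add_right_cancel h2

theorem orbSum_pow (r : ℕ) [Fact r.Prime] (a : R) (ha : a ^ r = 1) (j : ℕ) (hj0 : 0 < j)
    (hjr : j < r) : orbSum r (a ^ j) = orbSum r a := by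
  unfold orbSum
  have hr : r.Prime := Fact.out
  have hcop : Nat.Coprime r j := by
    rw [Nat.Prime.coprime_iff_not_dvd hr]
    intro hd
    have := Nat.le_of_dvd hj0 hd
    omega
  have h1 : ∑ i ∈ Finset.range r, (a ^ j) ^ i = ∑ i ∈ Finset.range r, a ^ ((j * i) % r) := by
    apply Finset.sum_congr rfl
    intro i _
    rw [← pow_mul, pow_eq_pow_mod (j * i) ha]
  rw [h1]
  have hinj : Set.InjOn (fun i => (j * i) % r) (Finset.range r : Set ℕ) := by
    intro x hx y hy hxy
    simp only [Finset.coe_range, Set.mem_Iio] at hx hy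
    have h2 : j * x ≡ j * y [MOD r] := hxy
    have h3 : x ≡ y [MOD r] := Nat.ModEq.cancel_left_of_coprime hcop h2
    have h4 : x % r = y % r := h3
    rw [Nat.mod_eq_of_lt hx, Nat.mod_eq_of_lt hy] at h4
    exact h4
  have himg : (Finset.range r).image (fun i => (j * i) % r) = Finset.range r := by
    apply Finset.eq_of_subset_of_card_le
    · intro x hx
      rw [Finset.mem_image] at hx
      obtain ⟨i, _, rfl⟩ := hx
      rw [Finset.mem_range]
      exact Nat.mod_lt _ hr.pos
    · rw [Finset.card_image_of_injOn hinj]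
  have h5 := Finset.sum_image (f := fun s => a ^ s) (s := Finset.range r)
    (g := fun i => (j * i) % r) hinj
  rw [himg] at h5
  rw [h5]

theorem sum_orbSum (r : ℕ) [Fact r.Prime] (a b : R) (hab : a * b = b * a) (ha : a ^ r = 1) :
    ∑ t ∈ Finset.range r, orbSum r (a ^ t * b) =
      (r : R) + orbSum r a * ∑ j ∈ (Finset.range r).filter (fun j => j ≠ 0), b ^ j := by
  have hr : r.Prime := Fact.out
  have hcomm : ∀ t : ℕ, Commute (a ^ t) b := fun t => (Commute.pow_left hab t)
  have h1 : ∑ t ∈ Finset.range r, orbSum r (a ^ t * b) =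
      ∑ j ∈ Finset.range r, orbSum r (a ^ j) * b ^ j := by
    unfold orbSum
    rw [Finset.sum_comm]
    apply Finset.sum_congr rfl
    intro j _
    rw [Finset.sum_mul]
    apply Finset.sum_congr rfl
    intro t _
    rw [(hcomm t).mul_pow, ← pow_mul, ← pow_mul, mul_comm t j]
  rw [h1]
  rw [← Finset.sum_filter_add_sum_filter_not (Finset.range r) (fun j => j ≠ 0)]
  have h2 : ∑ j ∈ (Finset.range r).filter (fun j => ¬ j ≠ 0), orbSum r (a ^ j) * b ^ j = (r : R) := by
    have : (Finset.range r).filter (fun j => ¬ j ≠ 0) = {0} := by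
      ext x
      simp only [Finset.mem_filter, Finset.mem_range, Finset.mem_singleton, not_not]
      constructor
      · rintro ⟨_, h⟩; exact h
      · rintro rfl; exact ⟨hr.pos, rfl⟩
    rw [this, Finset.sum_singleton]
    unfold orbSum
    simp
  rw [h2, add_comm]
  congr 1
  rw [Finset.mul_sum]
  apply Finset.sum_congr rfl
  intro j hj
  rw [Finset.mem_filter, Finset.mem_range] at hj
  rw [orbSum_pow r a ha j (Nat.pos_of_ne_zero hj.2) hj.1]

end RingPart

/-- the abstract fixed-point lemma: two commuting endomorphisms of exponent `r` of an abelian group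
such that `a` and all `a^t b` have only trivial fixed points force `r • m = 0`. -/
theorem nsmul_eq_zero_of_fpf {M : Type*} [AddCommGroup M] (a b : AddMonoid.End M)
    (hab : a * b = b * a) (r : ℕ) [Fact r.Prime] (ha : a ^ r = 1) (hb : b ^ r = 1)
    (hfa : ∀ x, a x = x → x = 0) (hfab : ∀ t : ℕ, ∀ x, (a ^ t * b) x = x → x = 0) (m : M) :
    r • m = 0 := by
  have key : ∀ c : AddMonoid.End M, c ^ r = 1 → (∀ x, c x = x → x = 0) → ∀ x, orbSum r c x = 0 := by
    intro c hc hfix x
    apply hfix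
    have := mul_orbSum r c hc
    calc c (orbSum r c x) = (c * orbSum r c) x := rfl
      _ = orbSum r c x := by rw [this]
  have h1 := sum_orbSum r a b hab ha
  have h2 := DFunLike.congr_fun h1 m
  have h3 : (∑ t ∈ Finset.range r, orbSum r (a ^ t * b)) m = 0 := by
    have hs : (∑ t ∈ Finset.range r, orbSum r (a ^ t * b)) m =
        ∑ t ∈ Finset.range r, (orbSum r (a ^ t * b)) m :=
      map_sum (AddMonoidHom.eval m) (fun t => orbSum r (a ^ t * b)) (Finset.range r)
    rw [hs]
    apply Finset.sum_eq_zero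
    intro t _
    apply key _ _ (hfab t)
    have hcomm : Commute (a ^ t) b := Commute.pow_left hab t
    rw [hcomm.mul_pow, ← pow_mul, mul_comm t r, pow_mul, ha, one_pow, hb, one_mul]
  rw [h3] at h2
  have h4 : ((r : AddMonoid.End M) + orbSum r a *
      ∑ j ∈ (Finset.range r).filter (fun j => j ≠ 0), b ^ j) m =
      r • m + orbSum r a ((∑ j ∈ (Finset.range r).filter (fun j => j ≠ 0), b ^ j) m) := by
    have h5 : ((r : AddMonoid.End M)) m = r • m := by simp
    calc ((r : AddMonoid.End M) + orbSum r a *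
          ∑ j ∈ (Finset.range r).filter (fun j => j ≠ 0), b ^ j) m
        = ((r : AddMonoid.End M)) m + (orbSum r a *
          ∑ j ∈ (Finset.range r).filter (fun j => j ≠ 0), b ^ j) m := rfl
      _ = r • m + orbSum r a ((∑ j ∈ (Finset.range r).filter (fun j => j ≠ 0), b ^ j) m) := by
          rw [h5]; rfl
  rw [h4, key a ha hfa, add_zero] at h2
  exact h2.symm

section GroupPart

variable {G : Type u} [Group G]

/-- conjugation by `g` on the centre of a normal subgroup `D`. -/
def cFun (D : Subgroup G) (hD : D.Normal) (g : G) (z : ↥(Subgroup.center ↥D)) :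
    ↥(Subgroup.center ↥D) :=
  ⟨⟨g * ((z : ↥D) : G) * g⁻¹, hD.conj_mem _ (z : ↥D).2 g⟩, by
    rw [Subgroup.mem_center_iff]
    intro y
    have hy : g⁻¹ * (y : G) * g ∈ D := by
      have := hD.conj_mem _ y.2 g⁻¹
      simpa using this
    have hz := (Subgroup.mem_center_iff.mp z.2) ⟨g⁻¹ * (y : G) * g, hy⟩
    have hz' : g⁻¹ * (y : G) * g * ((z : ↥D) : G) = ((z : ↥D) : G) * (g⁻¹ * (y : G) * g) :=
      congrArg Subtype.val hz
    apply Subtype.ext
    show (y : G) * (g * ((z : ↥D) : G) * g⁻¹) = g * ((z : ↥D) : G) * g⁻¹ * (y : G)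
    calc (y : G) * (g * ((z : ↥D) : G) * g⁻¹)
        = g * (g⁻¹ * (y : G) * g * ((z : ↥D) : G)) * g⁻¹ := by group
      _ = g * (((z : ↥D) : G) * (g⁻¹ * (y : G) * g)) * g⁻¹ := by rw [hz']
      _ = g * ((z : ↥D) : G) * g⁻¹ * (y : G) := by group⟩

theorem cFun_mul (D : Subgroup G) (hD : D.Normal) (g : G) (z w : ↥(Subgroup.center ↥D)) :
    cFun D hD g (z * w) = cFun D hD g z * cFun D hD g w := by
  apply Subtype.ext
  apply Subtype.ext
  show g * (((z : ↥D) : G) * ((w : ↥D) : G)) * g⁻¹ =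
    (g * ((z : ↥D) : G) * g⁻¹) * (g * ((w : ↥D) : G) * g⁻¹)
  group

theorem cFun_comp (D : Subgroup G) (hD : D.Normal) (g h : G) (z : ↥(Subgroup.center ↥D)) :
    cFun D hD (g * h) z = cFun D hD g (cFun D hD h z) := by
  apply Subtype.ext
  apply Subtype.ext
  show (g * h) * ((z : ↥D) : G) * (g * h)⁻¹ = g * (h * ((z : ↥D) : G) * h⁻¹) * g⁻¹
  group

theorem cFun_one (D : Subgroup G) (hD : D.Normal) (z : ↥(Subgroup.center ↥D)) :
    cFun D hD 1 z = z := by
  apply Subtype.ext
  apply Subtype.ext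
  show (1 : G) * ((z : ↥D) : G) * (1 : G)⁻¹ = ((z : ↥D) : G)
  group

/-- the endomorphism of the (additive) centre of `D` induced by conjugation by `g`. -/
noncomputable def cEnd (D : Subgroup G) (hD : D.Normal) (g : G) :
    AddMonoid.End (Additive ↥(Subgroup.center ↥D)) :=
  AddMonoidHom.mk' (fun x => Additive.ofMul (cFun D hD g x.toMul)) (by
    intro x y
    show Additive.ofMul (cFun D hD g (x.toMul * y.toMul)) =
      Additive.ofMul (cFun D hD g x.toMul * cFun D hD g y.toMul)
    rw [cFun_mul])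

theorem cEnd_apply (D : Subgroup G) (hD : D.Normal) (g : G)
    (x : Additive ↥(Subgroup.center ↥D)) :
    cEnd D hD g x = Additive.ofMul (cFun D hD g x.toMul) := rfl

theorem cEnd_mul (D : Subgroup G) (hD : D.Normal) (g h : G) :
    cEnd D hD (g * h) = cEnd D hD g * cEnd D hD h := by
  apply AddMonoidHom.ext
  intro x
  show Additive.ofMul (cFun D hD (g * h) x.toMul) =
    Additive.ofMul (cFun D hD g (cFun D hD h x.toMul))
  rw [cFun_comp]

theorem cEnd_one (D : Subgroup G) (hD : D.Normal) : cEnd D hD 1 = 1 := by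
  apply AddMonoidHom.ext
  intro x
  show Additive.ofMul (cFun D hD 1 x.toMul) = x
  rw [cFun_one]
  rfl

theorem cEnd_pow (D : Subgroup G) (hD : D.Normal) (g : G) (n : ℕ) :
    cEnd D hD (g ^ n) = cEnd D hD g ^ n := by
  induction n with
  | zero => rw [pow_zero, pow_zero, cEnd_one]
  | succ k ih => rw [pow_succ, pow_succ, cEnd_mul, ih]

theorem cEnd_fix (D : Subgroup G) (hD : D.Normal) (g : G)
    (x : Additive ↥(Subgroup.center ↥D)) (h : cEnd D hD g x = x) :
    g * (((x.toMul : ↥(Subgroup.center ↥D)) : ↥D) : G) =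
      (((x.toMul : ↥(Subgroup.center ↥D)) : ↥D) : G) * g := by
  have h1 : cFun D hD g x.toMul = x.toMul := by
    have := congrArg Additive.toMul h
    exact this
  have h2 : g * (((x.toMul : ↥(Subgroup.center ↥D)) : ↥D) : G) * g⁻¹ =
      (((x.toMul : ↥(Subgroup.center ↥D)) : ↥D) : G) :=
    congrArg (fun w : ↥(Subgroup.center ↥D) => ((w : ↥D) : G)) h1
  calc g * (((x.toMul : ↥(Subgroup.center ↥D)) : ↥D) : G)
      = g * (((x.toMul : ↥(Subgroup.center ↥D)) : ↥D) : G) * g⁻¹ * g := by group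
    _ = (((x.toMul : ↥(Subgroup.center ↥D)) : ↥D) : G) * g := by rw [h2]

end GroupPart

/-- S4756-CYC1. -/
theorem cyc1 : Cfsg.Agent.H74.MC.StCyc1.{u} := by
  intro G _ _ p _ A D hDn hDp hD1 hcop hab hfpf r hr e₁ he₁ e₂ he₂ he₁1 he₁r he₂r
  by_contra hne
  haveI : Fact r.Prime := ⟨hr⟩
  have hp : p.Prime := Fact.out
  have horder : orderOf e₁ = r := orderOf_eq_prime he₁r he₁1
  have hrp : r ≠ p := by
    intro hrp
    have h2 : orderOf (⟨e₁, he₁⟩ : ↥A) ∣ Nat.card ↥A := orderOf_dvd_natCard _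
    rw [Subgroup.orderOf_mk, horder, hrp] at h2
    have h3 : p ∣ Nat.gcd (Nat.card ↥A) p := Nat.dvd_gcd h2 dvd_rfl
    rw [hcop] at h3
    exact hp.one_lt.ne' (Nat.dvd_one.mp h3)
  haveI : Nontrivial ↥D := (Subgroup.nontrivial_iff_ne_bot D).mpr hD1
  haveI : Nontrivial ↥(Subgroup.center ↥D) := hDp.center_nontrivial
  obtain ⟨z, hz⟩ := exists_ne (1 : ↥(Subgroup.center ↥D))
  letI : CommGroup ↥(Subgroup.center ↥D) :=
    { (inferInstance : Group ↥(Subgroup.center ↥D)) with
      mul_comm := fun a b => Subtype.ext ((Subgroup.mem_center_iff.mp b.2) (a : ↥D)) }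
  -- fixed points of nonidentity elements of `A`
  have hfix : ∀ e ∈ A, e ≠ 1 → ∀ x : Additive ↥(Subgroup.center ↥D),
      cEnd D hDn e x = x → x = 0 := by
    intro e he he1 x hx
    have h1 := cEnd_fix D hDn e x hx
    have h2 := hfpf e he he1 _ (x.toMul : ↥D).2 h1
    have h3 : x.toMul = 1 := by
      apply Subtype.ext
      apply Subtype.ext
      exact h2
    have : Additive.ofMul x.toMul = Additive.ofMul 1 := by rw [h3]
    exact this
  have hmain := nsmul_eq_zero_of_fpf (cEnd D hDn e₁) (cEnd D hDn e₂)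
    (by rw [← cEnd_mul, ← cEnd_mul, hab e₁ he₁ e₂ he₂]) r
    (by rw [← cEnd_pow, he₁r, cEnd_one]) (by rw [← cEnd_pow, he₂r, cEnd_one])
    (hfix e₁ he₁ he₁1)
    (by
      intro t x hx
      rw [← cEnd_pow, ← cEnd_mul] at hx
      apply hfix (e₁ ^ t * e₂) (A.mul_mem (A.pow_mem he₁ t) he₂) _ x hx
      intro h1
      apply hne
      have h2 : e₂ = (e₁ ^ t)⁻¹ := eq_inv_of_mul_eq_one_right h1
      rw [h2]
      exact (Subgroup.zpowers e₁).inv_mem ((Subgroup.zpowers e₁).pow_mem
        (Subgroup.mem_zpowers e₁) t))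
    (Additive.ofMul z)
  have hzr : z ^ r = 1 := by
    have : Additive.ofMul (z ^ r) = Additive.ofMul 1 := by
      rw [ofMul_pow]
      exact hmain
    exact this
  obtain ⟨k, hk⟩ := hDp (z : ↥D)
  have hzr' : (z : ↥D) ^ r = 1 := by
    have := congrArg (fun w : ↥(Subgroup.center ↥D) => (w : ↥D)) hzr
    simpa using this
  have h1 : orderOf (z : ↥D) ∣ r := orderOf_dvd_of_pow_eq_one hzr'
  have h2 : orderOf (z : ↥D) ∣ p ^ k := orderOf_dvd_of_pow_eq_one hk
  have hcop2 : Nat.Coprime r (p ^ k) :=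
    Nat.Coprime.pow_right k ((Nat.coprime_primes hr hp).mpr hrp)
  have h3 : orderOf (z : ↥D) = 1 := Nat.eq_one_of_dvd_coprimes hcop2 h1 h2
  rw [orderOf_eq_one_iff] at h3
  apply hz
  apply Subtype.ext
  exact h3

example : Cfsg.Agent.H74.MC.StCyc1.{u} := cyc1


end Cfsg.Agent.H66.MC
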