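import Cfsg.Agent.H74.MCDefs

set_option autoImplicit false
set_option linter.style.haveILetI false
set_option linter.unusedVariables false
set_option linter.unusedSectionVars false

/-!
# helper66: S4756-CYC2 for helper74
-/

namespace Cfsg.Agent.H66.MC

open Cfsg

universe u

/-- in a finite commutative group whose elements of order dividing a prime `r` all lie in one
cyclic subgroup (for every `r`), the equation `a ^ n = 1` has at most `n` solutions. -/
theorem card_pow_eq_one_le_aux {H : Type*} [Group H] [Fintype H] [DecidableEq H]
    (hc : ∀ a b : H, a * b = b * a)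
    (hK : ∀ (r : ℕ), r.Prime → ∀ e₁ e₂ : H, e₁ ≠ 1 → e₁ ^ r = 1 → e₂ ^ r = 1 →
      e₂ ∈ Subgroup.zpowers e₁) :
    ∀ n : ℕ, 0 < n → (Finset.univ.filter fun a : H => a ^ n = 1).card ≤ n := by
  -- the prime case
  have hprime : ∀ r : ℕ, r.Prime → (Finset.univ.filter fun a : H => a ^ r = 1).card ≤ r := by
    intro r hr
    haveI : Fact r.Prime := ⟨hr⟩
    by_cases h1 : ∀ a : H, a ^ r = 1 → a = 1
    · have hsub : (Finset.univ.filter fun a : H => a ^ r = 1) ⊆ {1} := by
        intro a ha
        rw [Finset.mem_filter] at ha
        rw [Finset.mem_singleton]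
        exact h1 a ha.2
      calc (Finset.univ.filter fun a : H => a ^ r = 1).card
          ≤ ({1} : Finset H).card := Finset.card_le_card hsub
        _ = 1 := Finset.card_singleton 1
        _ ≤ r := hr.one_lt.le
    · push Not at h1
      obtain ⟨e₁, he₁r, he₁1⟩ := h1
      have hord : orderOf e₁ = r := orderOf_eq_prime he₁r he₁1
      have hsub : (Finset.univ.filter fun a : H => a ^ r = 1) ⊆
          (Finset.range r).image (fun i => e₁ ^ i) := by
        intro a ha
        rw [Finset.mem_filter] at ha
        have h2 := hK r hr e₁ a he₁1 he₁r ha.2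
        have h3 := (isOfFinOrder_of_finite e₁).mem_zpowers_iff_mem_range_orderOf.mp h2
        rw [hord] at h3
        exact h3
      calc (Finset.univ.filter fun a : H => a ^ r = 1).card
          ≤ ((Finset.range r).image (fun i => e₁ ^ i)).card := Finset.card_le_card hsub
        _ ≤ (Finset.range r).card := Finset.card_image_le
        _ = r := Finset.card_range r
  intro n
  induction n using Nat.strong_induction_on with
  | _ n ih =>
    intro hn
    by_cases hn1 : n = 1
    · subst hn1
      have hsub : (Finset.univ.filter fun a : H => a ^ 1 = 1) ⊆ {1} := by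
        intro a ha
        rw [Finset.mem_filter, pow_one] at ha
        rw [Finset.mem_singleton]
        exact ha.2
      calc (Finset.univ.filter fun a : H => a ^ 1 = 1).card
          ≤ ({1} : Finset H).card := Finset.card_le_card hsub
        _ = 1 := Finset.card_singleton 1
    · have hr : (n.minFac).Prime := Nat.minFac_prime hn1
      obtain ⟨m, hm⟩ : n.minFac ∣ n := Nat.minFac_dvd n
      have hm0 : 0 < m := by
        rcases Nat.eq_zero_or_pos m with h | h
        · rw [h, Nat.mul_zero] at hm; omega
        · exact h
      have hmn : m < n := by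
        have h2 : 2 ≤ n.minFac := hr.two_le
        calc m < 2 * m := by omega
          _ ≤ n.minFac * m := Nat.mul_le_mul_right m h2
          _ = n := hm.symm
      have ihm := ih m hmn hm0
      have h1 : (Finset.univ.filter fun a : H => a ^ n = 1).card ≤
          n.minFac * ((Finset.univ.filter fun a : H => a ^ n = 1).image
            (fun a => a ^ n.minFac)).card := by
        apply Finset.card_le_mul_card_image
        intro b hb
        rw [Finset.mem_image] at hb
        obtain ⟨a0, ha0, ha0b⟩ := hb
        have hmaps : Set.MapsTo (fun a : H => a * a0⁻¹)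
            (((Finset.univ.filter fun a : H => a ^ n = 1).filter
              (fun a => a ^ n.minFac = b) : Finset H) : Set H)
            ((Finset.univ.filter fun a : H => a ^ n.minFac = 1 : Finset H) : Set H) := by
          intro a ha
          rw [Finset.mem_coe, Finset.mem_filter] at ha
          rw [Finset.mem_coe, Finset.mem_filter]
          refine ⟨Finset.mem_univ _, ?_⟩
          have hcm : Commute a a0⁻¹ := hc a a0⁻¹
          show (a * a0⁻¹) ^ n.minFac = 1
          rw [hcm.mul_pow, ha.2, inv_pow, ha0b, mul_inv_cancel]
        have hinj : Set.InjOn (fun a : H => a * a0⁻¹)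
            (((Finset.univ.filter fun a : H => a ^ n = 1).filter
              (fun a => a ^ n.minFac = b) : Finset H) : Set H) := by
          intro x _ y _ hxy
          exact mul_right_cancel hxy
        calc ((Finset.univ.filter fun a : H => a ^ n = 1).filter
              (fun a => a ^ n.minFac = b)).card
            ≤ (Finset.univ.filter fun a : H => a ^ n.minFac = 1).card :=
              Finset.card_le_card_of_injOn _ hmaps hinj
          _ ≤ n.minFac := hprime _ hr
      have h2 : ((Finset.univ.filter fun a : H => a ^ n = 1).image (fun a => a ^ n.minFac)) ⊆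
          (Finset.univ.filter fun a : H => a ^ m = 1) := by
        intro b hb
        rw [Finset.mem_image] at hb
        obtain ⟨a, ha, rfl⟩ := hb
        rw [Finset.mem_filter] at ha ⊢
        refine ⟨Finset.mem_univ _, ?_⟩
        rw [← pow_mul, ← hm]
        exact ha.2
      calc (Finset.univ.filter fun a : H => a ^ n = 1).card
          ≤ n.minFac * ((Finset.univ.filter fun a : H => a ^ n = 1).image
            (fun a => a ^ n.minFac)).card := h1
        _ ≤ n.minFac * (Finset.univ.filter fun a : H => a ^ m = 1).card :=
            Nat.mul_le_mul_left _ (Finset.card_le_card h2)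
        _ ≤ n.minFac * m := Nat.mul_le_mul_left _ ihm
        _ = n := hm.symm

/-- S4756-CYC2. -/
theorem cyc2 : Cfsg.Agent.H74.MC.StCyc2.{u} := by
  intro G _ _ A hab hK
  classical
  haveI : Fintype ↥A := Fintype.ofFinite _
  apply isCyclic_of_card_pow_eq_one_le
  apply card_pow_eq_one_le_aux
  · intro a b
    exact Subtype.ext (hab a a.2 b b.2)
  · intro r hr e₁ e₂ h1 h1r h2r
    have h1' : (e₁ : G) ≠ 1 := fun h => h1 (Subtype.ext h)
    have h1r' : (e₁ : G) ^ r = 1 := by
      have := congrArg Subtype.val h1r
      simpa using this
    have h2r' : (e₂ : G) ^ r = 1 := by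
      have := congrArg Subtype.val h2r
      simpa using this
    have h3 := hK r hr e₁ e₁.2 e₂ e₂.2 h1' h1r' h2r'
    obtain ⟨k, hk⟩ := Subgroup.mem_zpowers_iff.mp h3
    refine Subgroup.mem_zpowers_iff.mpr ⟨k, Subtype.ext ?_⟩
    simpa using hk

example : Cfsg.Agent.H74.MC.StCyc2.{u} := cyc2


end Cfsg.Agent.H66.MC
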