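import Cfsg.Agent.H66.Layer

/-!
# The normal closure of a centre-free component is a minimal normal subgroup (helper66)
-/

set_option autoImplicit false
open Cfsg
open scoped Pointwise

namespace Cfsg.Agent.H66

universe u

section minnormal

variable {G : Type u} [Group G]

theorem eq_one_of_center_eq_bot {K : Subgroup G} (hK : Subgroup.center ↥K = ⊥) {l : G}
    (hl : l ∈ K) (h : ∀ k ∈ K, k * l = l * k) : l = 1 := by
  have : (⟨l, hl⟩ : K) ∈ Subgroup.center ↥K := by
    rw [Subgroup.mem_center_iff]
    intro k
    exact Subtype.ext (h k k.2)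
  rw [hK, Subgroup.mem_bot] at this
  exact congrArg Subtype.val this

theorem conj_smul_trivCenter {K : Subgroup G}
    (hK : ∀ l ∈ K, (∀ k ∈ K, k * l = l * k) → l = 1) (g : G) :
    ∀ l ∈ MulAut.conj g • K, (∀ k ∈ MulAut.conj g • K, k * l = l * k) → l = 1 := by
  intro l hl h
  rw [H1.mem_conj_smul_iff] at hl
  have h1 := hK _ hl (fun k hk => by
    have := h (g * k * g⁻¹) (H1.conj_mem_conj_smul g k K hk)
    calc k * (g⁻¹ * l * g) = g⁻¹ * (g * k * g⁻¹ * l) * g := by group
      _ = g⁻¹ * (l * (g * k * g⁻¹)) * g := by rw [this]
      _ = g⁻¹ * l * g * k := by group)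
  have : l = g * (g⁻¹ * l * g) * g⁻¹ := by group
  rw [this, h1]; group

/-- A subgroup `N` centralizing each member of a finite family `T` of pairwise commuting
subgroups with trivial centres meets the join of `T` trivially. -/
theorem inf_sSup_eq_bot_of_centralizes (N : Subgroup G) (T : Finset (Subgroup G))
    (hcomm : ∀ L ∈ T, ∀ L' ∈ T, L ≠ L' → L' ≤ Subgroup.centralizer (L : Set G))
    (hcen : ∀ L ∈ T, ∀ l ∈ L, (∀ k ∈ L, k * l = l * k) → l = 1)
    (hN : ∀ L ∈ T, N ≤ Subgroup.centralizer (L : Set G)) :
    N ⊓ sSup (T : Set (Subgroup G)) = ⊥ := by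
  classical
  induction T using Finset.induction_on with
  | empty => simp
  | insert L T hLT ih =>
    rw [Finset.coe_insert, sSup_insert]
    have ih' := ih
      (fun A hA B hB => hcomm A (Finset.mem_insert_of_mem hA) B (Finset.mem_insert_of_mem hB))
      (fun A hA => hcen A (Finset.mem_insert_of_mem hA))
      (fun A hA => hN A (Finset.mem_insert_of_mem hA))
    have hW : sSup (T : Set (Subgroup G)) ≤ Subgroup.centralizer (L : Set G) := by
      apply sSup_le
      intro L' hL'
      exact hcomm L (Finset.mem_insert_self L T) L' (Finset.mem_insert_of_mem hL')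
        (fun h => hLT (h ▸ hL'))
    rw [eq_bot_iff]
    rintro n ⟨hnN, hnS⟩
    have hset : ((L ⊔ sSup (T : Set (Subgroup G)) : Subgroup G) : Set G)
        = ((sSup (T : Set (Subgroup G)) : Subgroup G) : Set G) * (L : Set G) := by
      rw [sup_comm]
      exact Subgroup.coe_mul_of_left_le_normalizer_right _ _
        (hW.trans (Subgroup.centralizer_le_normalizer _))
    have hn' : n ∈ ((sSup (T : Set (Subgroup G)) : Subgroup G) : Set G) * (L : Set G) :=
      hset ▸ hnS
    obtain ⟨w, hw, l, hl, hwl⟩ := hn'
    have hwl' : w * l = n := hwl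
    subst hwl'
    have hl1 : l = 1 := by
      apply hcen L (Finset.mem_insert_self L T) l hl
      intro k hk
      have e1 : k * (w * l) = (w * l) * k :=
        Subgroup.mem_centralizer_iff.1 (hN L (Finset.mem_insert_self L T) hnN) k hk
      have e2 : k * w = w * k := Subgroup.mem_centralizer_iff.1 (hW hw) k hk
      have : w * (k * l) = w * (l * k) := by
        calc w * (k * l) = (w * k) * l := by group
          _ = (k * w) * l := by rw [e2]
          _ = k * (w * l) := by group
          _ = (w * l) * k := e1
          _ = w * (l * k) := by group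
      exact mul_left_cancel this
    subst hl1
    rw [mul_one] at hnN ⊢
    have : w ∈ N ⊓ sSup (T : Set (Subgroup G)) := ⟨hnN, hw⟩
    rw [ih'] at this
    exact this

/-- The normal closure of a component with trivial centre is a minimal normal subgroup. -/
theorem normalClosure_component_isMin [Finite G] {K : Subgroup G} (hK : IsComponent K)
    (hZ : Subgroup.center ↥K = ⊥) :
    Subgroup.normalClosure (K : Set G) ≠ ⊥ ∧ ∀ N : Subgroup G, N.Normal →
      N ≤ Subgroup.normalClosure (K : Set G) → N = ⊥ ∨ N = Subgroup.normalClosure (K : Set G) := by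
  classical
  constructor
  · intro h
    exact H27.isComponent_ne_bot hK (le_bot_iff.mp (h ▸ Subgroup.le_normalClosure))
  · intro N hN hNC
    by_cases hex : ∃ g : G, MulAut.conj g • K ≤ N
    · right
      obtain ⟨g, hg⟩ := hex
      apply le_antisymm hNC
      apply Subgroup.normalClosure_le_normal
      intro x hx
      have h1 := hg (H1.conj_mem_conj_smul g x K hx)
      have h2 := hN.conj_mem _ h1 g⁻¹
      simpa [mul_assoc] using h2
    · left
      push Not at hex
      have hSfin : (Set.range (fun g : G => MulAut.conj g • K)).Finite := Set.toFinite _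
      have hmemT : ∀ L, L ∈ hSfin.toFinset ↔ ∃ g : G, MulAut.conj g • K = L := by
        intro L; rw [Set.Finite.mem_toFinset]; rfl
      have hcompT : ∀ L ∈ hSfin.toFinset, IsComponent L := by
        intro L hL; obtain ⟨g, rfl⟩ := (hmemT L).1 hL; exact isComponent_conj_smul hK g
      have h1 := inf_sSup_eq_bot_of_centralizes N hSfin.toFinset ?_ ?_ ?_
      · have hCle : Subgroup.normalClosure (K : Set G)
            ≤ sSup (hSfin.toFinset : Set (Subgroup G)) := by
          have hnorm : (sSup (hSfin.toFinset : Set (Subgroup G))).Normal := by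
            apply sSup_normal_of_conj_stable
            intro L hL g
            obtain ⟨g', rfl⟩ := (hmemT L).1 (Finset.mem_coe.1 hL)
            rw [Finset.mem_coe, hmemT]
            exact ⟨g * g', H1.conj_mul_smul g g' K⟩
          apply Subgroup.normalClosure_le_normal
          have : K ≤ sSup (hSfin.toFinset : Set (Subgroup G)) :=
            le_sSup (Finset.mem_coe.2 ((hmemT K).2 ⟨1, H1.conj_one_smul K⟩))
          exact this
        rw [eq_bot_iff, ← h1]
        exact le_inf le_rfl (hNC.trans hCle)
      · intro L hL L' hL' hne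
        have := H27.components_commute (hcompT L' hL') (hcompT L hL) (Ne.symm hne)
        exact Subgroup.commutator_eq_bot_iff_le_centralizer.mp this
      · intro L hL
        obtain ⟨g, rfl⟩ := (hmemT L).1 hL
        exact conj_smul_trivCenter (fun l hl h => eq_one_of_center_eq_bot hZ hl h) g
      · intro L hL
        obtain ⟨g, rfl⟩ := (hmemT L).1 hL
        rcases H27.component_normal_le_or_comm (MulAut.conj g • K) N
          (isComponent_conj_smul hK g) with h | h
        · exact absurd h (hex g)
        · rw [Subgroup.commutator_comm] at h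
          exact Subgroup.commutator_eq_bot_iff_le_centralizer.mp h

end minnormal

end Cfsg.Agent.H66
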